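import Cfsg.Agent.H4.ZJ
import Cfsg.Agent.Stability.Action
import Cfsg.Agent.Fusion.Alperin

/-!
Glauberman: in groups without `SL(2, p)` sections, `p` odd, the normalizer of `Z(J(P))` controls
fusion in `P`.
-/

set_option autoImplicit false

open scoped commutatorElement Pointwise

namespace Cfsg.Agent.H4

open Fusion

universe u

variable {p : ℕ} [Fact p.Prime]

/-- `g` acts on `D` as an element of the normalizer of `Z(J(P))` does. -/
def ZJControls {G : Type*} [Group G] (p : ℕ) (P D : Subgroup G) (g : G) : Prop :=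
  ∃ n ∈ Subgroup.normalizer (Cfsg.centerThompsonOf p P : Set G), ∀ a ∈ D, n⁻¹ * a * n = g⁻¹ * a * g

namespace ZJControls

variable {G : Type*} [Group G] {P D : Subgroup G} {g h : G}

omit [Fact p.Prime] in
theorem of_mem (hg : g ∈ Subgroup.normalizer (Cfsg.centerThompsonOf p P : Set G)) :
    ZJControls p P D g :=
  ⟨g, hg, fun _ _ => rfl⟩

omit [Fact p.Prime] in
theorem of_centralizer (hg : g ∈ Subgroup.centralizer (D : Set G)) : ZJControls p P D g :=
  ⟨1, one_mem _, fun a ha => by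
    rw [inv_one, one_mul, mul_one, mul_assoc, Subgroup.mem_centralizer_iff.mp hg a ha,
      inv_mul_cancel_left]⟩

omit [Fact p.Prime] in
theorem congr (H : ZJControls p P D g) (heq : ∀ a ∈ D, g⁻¹ * a * g = h⁻¹ * a * h) :
    ZJControls p P D h := by
  obtain ⟨n, hn, hna⟩ := H
  exact ⟨n, hn, fun a ha => (hna a ha).trans (heq a ha)⟩

omit [Fact p.Prime] in
theorem mono (H : ZJControls p P D g) {D' : Subgroup G} (hle : D' ≤ D) : ZJControls p P D' g := by
  obtain ⟨n, hn, hna⟩ := H
  exact ⟨n, hn, fun a ha => hna a (hle ha)⟩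

omit [Fact p.Prime] in
theorem comp (H : ZJControls p P D g) (K : ZJControls p P (cj g⁻¹ D) h) :
    ZJControls p P D (g * h) := by
  obtain ⟨n, hn, hna⟩ := H
  obtain ⟨m, hm, hma⟩ := K
  refine ⟨n * m, mul_mem hn hm, fun a ha => ?_⟩
  have h1 : g⁻¹ * a * g ∈ cj g⁻¹ D := mem_cj_inv.mpr (by simpa [mul_assoc] using ha)
  calc (n * m)⁻¹ * a * (n * m) = m⁻¹ * (n⁻¹ * a * n) * m := by group
    _ = h⁻¹ * (g⁻¹ * a * g) * h := by rw [hna a ha, hma _ h1]
    _ = (g * h)⁻¹ * a * (g * h) := by group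

omit [Fact p.Prime] in
theorem inv (H : ZJControls p P D g) : ZJControls p P (cj g⁻¹ D) g⁻¹ := by
  obtain ⟨n, hn, hna⟩ := H
  refine ⟨n⁻¹, inv_mem hn, fun a ha => ?_⟩
  have h1 := hna _ (mem_cj_inv.mp ha)
  calc n⁻¹⁻¹ * a * n⁻¹ = n * (g⁻¹ * (g * a * g⁻¹) * g) * n⁻¹ := by group
    _ = n * (n⁻¹ * (g * a * g⁻¹) * n) * n⁻¹ := by rw [h1]
    _ = g⁻¹⁻¹ * a * g⁻¹ := by group

omit [Fact p.Prime] in
/-- Conjugate the problem by a controlled element. -/
theorem of_conj {y : G} (h1 : ZJControls p P D y)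
    (h2 : ZJControls p P (cj g⁻¹ D) y)
    (h3 : ZJControls p P (cj y⁻¹ D) (y⁻¹ * g * y)) : ZJControls p P D g := by
  have hg : g = y * ((y⁻¹ * g * y) * y⁻¹) := by group
  rw [hg]
  refine h1.comp (h3.comp ?_)
  have h := h2.inv
  have e : cj y⁻¹ (cj g⁻¹ D) = cj (y⁻¹ * g * y)⁻¹ (cj y⁻¹ D) := by
    rw [cj_cj, cj_cj]
    congr 1
    group
  rwa [e] at h

end ZJControls

variable (p) in
/-- No `SL(2, p)` section. -/
def SL2Free (G : Type*) [Group G] : Prop :=
  ¬ ∃ (H K : Subgroup G) (_ : (K.subgroupOf H).Normal),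
    Nonempty ((H ⧸ K.subgroupOf H) ≃* Matrix.SpecialLinearGroup (Fin 2) (ZMod p))

theorem cj_eq_of_agree {G : Type*} [Group G] {D : Subgroup G} {n g : G}
    (h : ∀ a ∈ D, n⁻¹ * a * n = g⁻¹ * a * g) : cj n⁻¹ D = cj g⁻¹ D := by
  ext z
  constructor
  · rintro ⟨a, ha, rfl⟩
    exact ⟨a, ha, by simpa [MulAut.conj_apply] using (h a ha).symm⟩
  · rintro ⟨a, ha, rfl⟩
    exact ⟨a, ha, by simpa [MulAut.conj_apply] using h a ha⟩

omit [Fact p.Prime] in
theorem SL2Free.quotient {G : Type*} [Group G] (h : SL2Free p G) (N : Subgroup G) [N.Normal] :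
    SL2Free p (G ⧸ N) := by
  rintro ⟨K, L, hL, ⟨e⟩⟩
  exact h (Stability.section_comap _ (QuotientGroup.mk'_surjective N) hL e)

omit [Fact p.Prime] in
theorem SL2Free.subgroup {G : Type*} [Group G] (h : SL2Free p G) (M : Subgroup G) :
    SL2Free p M := by
  rintro ⟨K, L, hL, ⟨e⟩⟩
  refine h ⟨K.map M.subtype, L.map M.subtype, ?_⟩
  let f := K.equivMapOfInjective M.subtype M.subtype_injective
  have hf : (L.subgroupOf K).map f.toMonoidHom = (L.map M.subtype).subgroupOf (K.map M.subtype) := by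
    ext x
    constructor
    · rintro ⟨y, hy, rfl⟩
      exact ⟨_, hy, rfl⟩
    · intro hx
      obtain ⟨z, hz, hzx⟩ := hx
      obtain ⟨w, hw, hwx⟩ := x.2
      have : z = w := Subtype.ext (hzx.trans hwx.symm)
      subst this
      exact ⟨⟨z, hw⟩, hz, Subtype.ext hwx⟩
  have hn : ((L.map M.subtype).subgroupOf (K.map M.subtype)).Normal := hf ▸ hL.map _ f.surjective
  exact ⟨hn, ⟨(QuotientGroup.congr _ _ f hf).symm.trans e⟩⟩

theorem SL2Free.zjStable {G : Type*} [Group G] [Finite G] (h : SL2Free p G) (hp2 : p ≠ 2)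
    (P : Subgroup G) : ZJStable p P := by
  intro B _ hB a _ hquad
  refine (Stability.pairFree_of_sl2Free h).isPStableOn hp2 hB a ?_
  rw [Subgroup.commutator_eq_bot_iff_le_centralizer, Subgroup.commutator_le]
  intro β hβ y hy
  rw [Subgroup.mem_centralizer_iff]
  suffices hy' : Commute ⁅β, y⁆ a from fun z hz => by
    obtain ⟨k, rfl⟩ := hz
    exact (hy'.zpow_right k).eq.symm
  let S : Subgroup G :=
    { carrier := {y | Commute y a ∧ Commute ⁅β, y⁆ a}
      one_mem' := ⟨Commute.one_left a, by rw [commutatorElement_one_right]; exact Commute.one_left a⟩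
      mul_mem' := fun {x z} hx hz => ⟨hx.1.mul_left hz.1, by
        have e : ⁅β, x * z⁆ = ⁅β, x⁆ * (x * ⁅β, z⁆ * x⁻¹) := by
          simp [commutatorElement_def, mul_assoc]
        rw [e]
        exact hx.2.mul_left ((hx.1.mul_left hz.2).mul_left hx.1.inv_left)⟩
      inv_mem' := fun {x} hx => ⟨hx.1.inv_left, by
        have e : ⁅β, x⁻¹⁆ = x⁻¹ * ⁅β, x⁆⁻¹ * x := by simp [commutatorElement_def, mul_assoc]
        rw [e]
        exact (hx.1.inv_left.mul_left hx.2.inv_left).mul_left hx.1⟩ }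
  have hle : Subgroup.zpowers a ≤ S := Subgroup.zpowers_le.mpr
    ⟨Commute.refl a, commutatorElement_eq_one_iff_mul_comm.mp (hquad β hβ)⟩
  exact (hle hy).2

/-- The Frattini factorisation through the stabilising subgroup. -/
theorem centralizer_sup_normalizer_stabCore {G : Type*} [Group G] [Finite G] (P : Sylow p G)
    (B : Subgroup G) [B.Normal] :
    Subgroup.centralizer (B : Set G) ⊔
      Subgroup.normalizer (((P : Subgroup G) ⊓ stabCore p B : Subgroup G) : Set G) = ⊤ := by
  set L := stabCore p B with hL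
  haveI hLn : L.Normal := stabCore_normal B
  set PL := (P : Subgroup G) ⊓ L
  let Q : Sylow p L := (P.2.comap_subtype (K := L)).toSylow
    (show ¬ p ∣ ((P : Subgroup G).subgroupOf L).index from fun hd =>
      Sylow.not_dvd_index P (hd.trans (PSolv.relIndex_dvd_index_of_normal_right (P : Subgroup G) L)))
  have hcomap : Subgroup.centralizer (B : Set G) ⊔ PL ≥ L := by
    have hle : ((Subgroup.centralizer (B : Set G) ⊔ PL).subgroupOf L) = ⊤ := by
      refine Transfer.eq_top_of_sylow_le Q (fun x hx => ?_) fun g hg => ?_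
      · exact Subgroup.mem_sup_right (show (x : G) ∈ PL from ⟨hx, x.2⟩)
      · refine Subgroup.mem_sup_left ?_
        obtain ⟨n, hn⟩ := exists_pow_mem_centralizer (p := p) g.2
        have hcop : Nat.Coprime (p ^ n) (orderOf (g : G)) := by
          rw [Subgroup.orderOf_coe]
          exact (Nat.Coprime.pow_right n hg).symm
        obtain ⟨m, hm⟩ := exists_pow_eq_self_of_coprime hcop
        show (g : G) ∈ Subgroup.centralizer (B : Set G)
        rw [← hm]
        exact pow_mem hn m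
    exact fun x hx => Subgroup.subgroupOf_eq_top.mp hle hx
  have htop := Q.normalizer_sup_eq_top
  have hQ : (Q : Subgroup L).map L.subtype = PL := Subgroup.subgroupOf_map_subtype _ _
  rw [hQ] at htop
  rw [eq_top_iff, ← htop]
  exact sup_le le_sup_right (hcomap.trans (sup_le le_sup_left
    (Subgroup.le_normalizer.trans le_sup_right)))

section Steps

variable {G : Type u} [Group G] [Finite G]

/-- The theorem for a group `X`. -/
def FusionControlled (p : ℕ) (X : Type u) [Group X] : Prop :=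
  ∀ (Q : Sylow p X) (D : Subgroup X) (g : X), D ≤ (Q : Subgroup X) →
    cj g⁻¹ D ≤ (Q : Subgroup X) → ZJControls p (Q : Subgroup X) D g

/-- Use the theorem in a proper subgroup `L` with Sylow subgroup `Q`. -/
theorem exists_of_subgroup {L Q D : Subgroup G} (hL : FusionControlled p L) (hQ : IsPGroup p Q)
    (hQL : Q ≤ L) (hidx : ¬ p ∣ Q.relIndex L) (hDQ : D ≤ Q) {g : G} (hg : g ∈ L)
    (hgD : cj g⁻¹ D ≤ Q) :
    ∃ n ∈ L, n ∈ Subgroup.normalizer (Cfsg.centerThompsonOf p Q : Set G) ∧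
      ∀ a ∈ D, n⁻¹ * a * n = g⁻¹ * a * g := by
  let QL : Sylow p L := (hQ.comap_subtype (K := L)).toSylow hidx
  obtain ⟨n, hn, hna⟩ := hL QL (D.subgroupOf L) ⟨g, hg⟩ (fun x hx => hDQ hx) fun x hx => by
    refine hgD (mem_cj_inv.mpr ?_)
    exact (mem_cj_inv.mp hx : _)
  refine ⟨n, n.2, ?_, fun a ha => ?_⟩
  · have h1 := Subgroup.le_normalizer_map L.subtype ⟨n, hn, rfl⟩
    rw [Modules.map_centerThompsonOf L.subtype_injective] at h1
    have e : (QL : Subgroup L).map L.subtype = Q := Subgroup.map_subgroupOf_eq_of_le hQL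
    rwa [e] at h1
  · exact congrArg Subtype.val (hna ⟨a, hQL (hDQ ha)⟩ ha)

/-- Alperin: it suffices to treat one step of a chain. -/
theorem controls_of_step (P : Sylow p G) (d : ℕ)
    (hbig : ∀ (D : Subgroup G) (g : G), d < Nat.card D → D ≤ (P : Subgroup G) →
      cj g⁻¹ D ≤ (P : Subgroup G) → ZJControls p (P : Subgroup G) D g)
    (hstep : ∀ (R : Sylow p G), IsTamePair P R → Nat.card ((P : Subgroup G) ⊓ R : Subgroup G) = d →
      ∀ x ∈ Subgroup.normalizer ((((P : Subgroup G) ⊓ (R : Subgroup G)) : Subgroup G) : Set G),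
        ZJControls p (P : Subgroup G) ((P : Subgroup G) ⊓ R) x)
    {D : Subgroup G} {g : G} (hd : Nat.card D = d) (hD : D ≤ (P : Subgroup G))
    (hg : cj g⁻¹ D ≤ (P : Subgroup G)) : ZJControls p (P : Subgroup G) D g := by
  have key : ∀ (D : Subgroup G) (y : G), FusionChain P D y → Nat.card D = d →
      ZJControls p (P : Subgroup G) D y := by
    intro D y hy
    induction hy with
    | one D => intro _; exact ZJControls.of_mem (one_mem _)
    | @step D R x y hR hx _ hDle _ ih =>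
      intro hd
      refine ZJControls.comp ?_ (ih (by rw [card_cj, hd]))
      refine ZJControls.mono ?_ hDle
      have hle : d ≤ Nat.card ((P : Subgroup G) ⊓ R : Subgroup G) :=
        hd ▸ Subgroup.card_le_of_le hDle
      rcases hle.lt_or_eq with h | h
      · refine hbig _ x h inf_le_left ?_
        rw [cj_eq_of_mem (inv_mem hx)]
        exact inf_le_left
      · exact hstep R hR h.symm x hx
  exact key D g (exists_chain P hD hg) hd

/-- Climbing normalizers, `O_p(G) = 1`. -/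
theorem controls_in_local (P : Sylow p G) (hO : Cfsg.pCore p G = ⊥)
    (hrec : ∀ L : Subgroup G, L ≠ ⊤ → FusionControlled p L) (d : ℕ)
    (hbig : ∀ (D : Subgroup G) (g : G), d < Nat.card D → D ≤ (P : Subgroup G) →
      cj g⁻¹ D ≤ (P : Subgroup G) → ZJControls p (P : Subgroup G) D g)
    (m : ℕ) : ∀ (W D : Subgroup G) (g : G), W ≤ (P : Subgroup G) → W ≠ ⊥ →
      Nat.card (P : Subgroup G) -
        Nat.card ((P : Subgroup G) ⊓ Subgroup.normalizer (W : Set G) : Subgroup G) ≤ m →
      d < Nat.card ((P : Subgroup G) ⊓ Subgroup.normalizer (W : Set G) : Subgroup G) →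
      D ≤ (P : Subgroup G) ⊓ Subgroup.normalizer (W : Set G) →
      g ∈ Subgroup.normalizer (W : Set G) →
      cj g⁻¹ D ≤ (P : Subgroup G) ⊓ Subgroup.normalizer (W : Set G) →
      ZJControls p (P : Subgroup G) D g := by
  induction m using Nat.strong_induction_on with
  | _ m ih =>
  intro W D g hWP hWne hm hd hD hg hgD
  set Q := (P : Subgroup G) ⊓ Subgroup.normalizer (W : Set G) with hQdef
  have hQp : IsPGroup p Q := P.2.to_le inf_le_left
  obtain ⟨R, hQR, hRidx⟩ := exists_sylow_inf_relIndex (p := p) (N := Subgroup.normalizer (W : Set G))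
    hQp inf_le_right
  obtain ⟨y, hy⟩ := exists_cj_sylow P R
  have hyP : cj y⁻¹ (R : Subgroup G) = (P : Subgroup G) := by rw [← hy, cj_inv_cj]
  have hyQ : cj y⁻¹ Q ≤ (P : Subgroup G) := hyP ▸ cj_mono _ hQR
  have hctrl : ZJControls p (P : Subgroup G) Q y := hbig Q y hd inf_le_left hyQ
  refine (hctrl.mono hD).of_conj (hctrl.mono hgD) ?_
  set W' := cj y⁻¹ W with hW'
  have hWQ : W ≤ Q := le_inf hWP Subgroup.le_normalizer
  have hW'P : W' ≤ (P : Subgroup G) := (cj_mono _ hWQ).trans hyQ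
  have hW'ne : W' ≠ ⊥ := fun h => hWne ((Subgroup.map_eq_bot_iff_of_injective _
    (MulAut.conj y⁻¹).injective).mp h)
  have hN' : Subgroup.normalizer (W' : Set G) = cj y⁻¹ (Subgroup.normalizer (W : Set G)) :=
    (cj_normalizer _ _).symm
  set Q' := (P : Subgroup G) ⊓ Subgroup.normalizer (W' : Set G) with hQ'def
  have hQ' : Q' = cj y⁻¹ ((R : Subgroup G) ⊓ Subgroup.normalizer (W : Set G)) := by
    rw [cj_inf, hyP, ← hN']
  have hidx' : ¬ p ∣ Q'.relIndex (Subgroup.normalizer (W' : Set G)) := by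
    rw [hQ', hN']
    exact fun h => hRidx ((Subgroup.relIndex_map_map_of_injective (f := (MulAut.conj y⁻¹).toMonoidHom) _ _
      (MulAut.conj y⁻¹).injective) ▸ h)
  have hQQ' : cj y⁻¹ Q ≤ Q' := hQ' ▸ cj_mono _ (le_inf hQR inf_le_right)
  have hD' : cj y⁻¹ D ≤ Q' := (cj_mono _ hD).trans hQQ'
  have hg' : y⁻¹ * g * y ∈ Subgroup.normalizer (W' : Set G) := by
    rw [hN', mem_cj_inv]
    simpa [mul_assoc] using hg
  have hgD' : cj (y⁻¹ * g * y)⁻¹ (cj y⁻¹ D) ≤ Q' := by
    have e : cj (y⁻¹ * g * y)⁻¹ (cj y⁻¹ D) = cj y⁻¹ (cj g⁻¹ D) := by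
      rw [cj_cj, cj_cj]
      congr 1
      group
    rw [e]
    exact (cj_mono _ hgD).trans hQQ'
  have hd' : d < Nat.card Q' := hd.trans_le ((card_cj y⁻¹ Q).ge.trans (Subgroup.card_le_of_le hQQ'))
  have hNlt : Subgroup.normalizer (W' : Set G) ≠ ⊤ := fun h => by
    haveI : W'.Normal := Subgroup.normalizer_eq_top_iff.mp h
    exact hW'ne (le_bot_iff.mp (hO ▸ Cores.le_pCore inferInstance (P.2.to_le hW'P)))
  obtain ⟨n, hnN, hnZ, hna⟩ := exists_of_subgroup (hrec _ hNlt) (P.2.to_le inf_le_left)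
    inf_le_right hidx' hD' hg' hgD'
  rcases eq_or_lt_of_le (inf_le_left : Q' ≤ (P : Subgroup G)) with hP | hlt
  · rw [hP] at hnZ
    exact ⟨n, hnZ, hna⟩
  refine ZJControls.congr ?_ hna
  have hQ'ne : Q' ≠ ⊥ := fun h => hW'ne (le_bot_iff.mp (h ▸ le_inf hW'P Subgroup.le_normalizer))
  set W'' := Cfsg.centerThompsonOf p Q'
  have hW''Q : W'' ≤ Q' := Modules.centerThompsonOf_le p _
  set Q'' := (P : Subgroup G) ⊓ Subgroup.normalizer (W'' : Set G) with hQ''def
  have hgrow : Q' < Q'' := (lt_normalizer_inf P.2 hlt).trans_le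
    (inf_le_inf_left _ (Modules.normalizer_le_normalizer_centerThompsonOf p Q'))
  have hcardlt := card_lt_card hgrow
  have hcardP : Nat.card Q'' ≤ Nat.card (P : Subgroup G) := Subgroup.card_le_of_le inf_le_left
  have hcardQ : Nat.card Q ≤ Nat.card Q' := (card_cj y⁻¹ Q).ge.trans (Subgroup.card_le_of_le hQQ')
  refine ih (Nat.card (P : Subgroup G) - Nat.card Q'') (by omega) W'' _ n
    (hW''Q.trans inf_le_left)
    (Modules.centerThompsonOf_ne_bot (P.2.to_le inf_le_left) hQ'ne) le_rfl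
    (hd'.trans hcardlt) (hD'.trans hgrow.le) hnZ ?_
  have e := cj_eq_of_agree hna
  rw [e]
  exact hgD'.trans hgrow.le

/-- The case `O_p(G) = 1`. -/
theorem controls_of_pCore_eq_bot (P : Sylow p G) (hO : Cfsg.pCore p G = ⊥)
    (hrec : ∀ L : Subgroup G, L ≠ ⊤ → FusionControlled p L) {D : Subgroup G} {g : G}
    (hbig : ∀ (D' : Subgroup G) (g' : G), Nat.card D < Nat.card D' → D' ≤ (P : Subgroup G) →
      cj g'⁻¹ D' ≤ (P : Subgroup G) → ZJControls p (P : Subgroup G) D' g')
    (hD : D ≤ (P : Subgroup G)) (hg : cj g⁻¹ D ≤ (P : Subgroup G)) :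
    ZJControls p (P : Subgroup G) D g := by
  refine controls_of_step P _ hbig (fun R hR hcard x hx => ?_) rfl hD hg
  set I := (P : Subgroup G) ⊓ (R : Subgroup G) with hI
  rcases eq_or_ne I ⊥ with hbot | hbot
  · refine ZJControls.of_centralizer (Subgroup.mem_centralizer_iff.mpr fun a ha => ?_)
    rw [SetLike.mem_coe, hbot, Subgroup.mem_bot] at ha
    rw [ha, one_mul, mul_one]
  rcases eq_or_lt_of_le (inf_le_left : I ≤ (P : Subgroup G)) with hP | hlt
  · exact ZJControls.of_mem (Modules.normalizer_le_normalizer_centerThompsonOf p _ (by rwa [← hP]))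
  set T := (P : Subgroup G) ⊓ Subgroup.normalizer (I : Set G) with hTdef
  have hIT : I < T := lt_normalizer_inf P.2 hlt
  have hTne : T ≠ ⊥ := fun h => not_lt_bot (h ▸ hIT)
  have hLne : Subgroup.normalizer (I : Set G) ≠ ⊤ := fun h => by
    haveI : I.Normal := Subgroup.normalizer_eq_top_iff.mp h
    exact hbot (le_bot_iff.mp (hO ▸ Cores.le_pCore inferInstance (P.2.to_le inf_le_left)))
  obtain ⟨n, -, hnZ, hna⟩ := exists_of_subgroup (hrec _ hLne) (P.2.to_le inf_le_left)
    inf_le_right hR.1 hIT.le hx (by rw [cj_eq_of_mem (inv_mem hx)]; exact hIT.le)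
  refine ZJControls.congr ?_ hna
  set W := Cfsg.centerThompsonOf p T
  have hWT : W ≤ T := Modules.centerThompsonOf_le p T
  have hTN : T ≤ (P : Subgroup G) ⊓ Subgroup.normalizer (W : Set G) := le_inf inf_le_left
    (Subgroup.le_normalizer.trans (Modules.normalizer_le_normalizer_centerThompsonOf p T))
  have hdT : Nat.card D < Nat.card T := hcard ▸ card_lt_card hIT
  refine controls_in_local P hO hrec _ hbig _ W I n (hWT.trans inf_le_left)
    (Modules.centerThompsonOf_ne_bot (P.2.to_le inf_le_left) hTne) le_rfl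
    (hdT.trans_le (Subgroup.card_le_of_le hTN)) (hIT.le.trans hTN) hnZ ?_
  have e := cj_eq_of_agree hna
  rw [e, cj_eq_of_mem (inv_mem hx)]
  exact hIT.le.trans hTN

/-- The case `G = C(O_p(G)) P`. -/
theorem controls_of_centralizer_sup (hp2 : p ≠ 2) (P : Sylow p G) (hfree : SL2Free p G)
    (hO : Cfsg.pCore p G < (P : Subgroup G))
    (hK : Subgroup.centralizer (Cfsg.pCore p G : Set G) ⊔ (P : Subgroup G) = ⊤)
    (hrec : ∀ L : Subgroup G, L ≠ ⊤ → FusionControlled p L)
    (hrecQ : FusionControlled p (G ⧸ Cfsg.pCore p G)) {D : Subgroup G} {g : G}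
    (hbig : ∀ (D' : Subgroup G) (g' : G), Nat.card D < Nat.card D' → D' ≤ (P : Subgroup G) →
      cj g'⁻¹ D' ≤ (P : Subgroup G) → ZJControls p (P : Subgroup G) D' g')
    (hD : D ≤ (P : Subgroup G)) (hg : cj g⁻¹ D ≤ (P : Subgroup G)) :
    ZJControls p (P : Subgroup G) D g := by
  set H := Cfsg.pCore p G with hHdef
  haveI hHn : H.Normal := inferInstance
  set C := Subgroup.centralizer (H : Set G)
  set π := QuotientGroup.mk' H with hπ
  let Pb : Sylow p (G ⧸ H) := P.mapSurjective (QuotientGroup.mk'_surjective H)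
  have hPb : (Pb : Subgroup (G ⧸ H)) = (P : Subgroup G).map π := rfl
  have hPcomap : ((P : Subgroup G).map π).comap π = (P : Subgroup G) := by
    rw [Subgroup.comap_map_eq, hπ, QuotientGroup.ker_mk', sup_eq_left.mpr hO.le]
  obtain ⟨nb, hnb, hnba⟩ := hrecQ Pb (D.map π) (π g) (hPb ▸ Subgroup.map_mono hD) (by
    rw [hPb]
    rintro z hz
    obtain ⟨w, hw, hwz⟩ := mem_cj_inv.mp hz
    refine ⟨g⁻¹ * w * g, hg (mem_cj_inv.mpr (by simpa [mul_assoc] using hw)), ?_⟩
    rw [map_mul, map_mul, map_inv, hwz]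
    group)
  obtain ⟨n, rfl⟩ := QuotientGroup.mk'_surjective H nb
  set X := (Cfsg.centerThompsonOf p (Pb : Subgroup (G ⧸ H))).comap π with hX
  have hnX : n ∈ Subgroup.normalizer (X : Set G) := Subgroup.le_normalizer_comap π hnb
  have hPX : (P : Subgroup G) ≤ Subgroup.normalizer (X : Set G) := fun x hx =>
    Subgroup.le_normalizer_comap π (Modules.normalizer_le_normalizer_centerThompsonOf p _
      (Subgroup.le_normalizer (show π x ∈ (Pb : Subgroup (G ⧸ H)) from hPb ▸ ⟨x, hx, rfl⟩)))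
  have hXne : Subgroup.normalizer (X : Set G) ≠ ⊤ := fun h => by
    haveI : X.Normal := Subgroup.normalizer_eq_top_iff.mp h
    have hXp : IsPGroup p X := (Pb.2.to_le (Modules.centerThompsonOf_le p _)).comap_of_ker_isPGroup
      π (by rw [hπ, QuotientGroup.ker_mk']; exact Cores.pCore_isPGroup)
    have hle : X ≤ H := Cores.le_pCore inferInstance hXp
    have hPbne : (Pb : Subgroup (G ⧸ H)) ≠ ⊥ := fun hb => by
      rw [hPb, Subgroup.map_eq_bot_iff, hπ, QuotientGroup.ker_mk'] at hb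
      exact hO.not_ge hb
    refine Modules.centerThompsonOf_ne_bot (p := p) Pb.2 hPbne ((Subgroup.eq_bot_iff_forall _).mpr
      fun z hz => ?_)
    obtain ⟨w, rfl⟩ := QuotientGroup.mk'_surjective H z
    exact (QuotientGroup.eq_one_iff w).mpr (hle hz)
  have hdiff : ∀ a ∈ D, (n⁻¹ * a * n)⁻¹ * (g⁻¹ * a * g) ∈ H := fun a ha => by
    refine (QuotientGroup.eq_one_iff _).mp ?_
    show π ((n⁻¹ * a * n)⁻¹ * (g⁻¹ * a * g)) = 1
    rw [map_mul, map_inv, map_mul, map_mul, map_mul, map_mul, map_inv, map_inv,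
      hnba (π a) ⟨a, ha, rfl⟩, inv_mul_cancel]
  have hnD : cj n⁻¹ D ≤ (P : Subgroup G) := fun z hz => by
    have hz' := mem_cj_inv.mp hz
    have h1 : g⁻¹ * (n * z * n⁻¹) * g ∈ (P : Subgroup G) :=
      hg (mem_cj_inv.mpr (by simpa [mul_assoc] using hz'))
    have h2 := hO.le (hdiff _ hz')
    rw [show n⁻¹ * (n * z * n⁻¹) * n = z by group] at h2
    simpa [mul_assoc] using (P : Subgroup G).mul_mem h1 ((P : Subgroup G).inv_mem h2)
  -- `n` is controlled inside `N(X)`
  have hn : ZJControls p (P : Subgroup G) D n := by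
    obtain ⟨m, -, hm, hma⟩ := exists_of_subgroup (hrec _ hXne) P.2 hPX
      (fun h => Sylow.not_dvd_index P (h.trans (Subgroup.relIndex_dvd_index_of_le hPX))) hD hnX hnD
    exact ⟨m, hm, hma⟩
  suffices hg' : ZJControls p (P : Subgroup G) (cj n⁻¹ D) (n⁻¹ * g) by
    have h := hn.comp hg'
    rwa [mul_inv_cancel_left] at h
  -- `n⁻¹ g` moves the elements of `D' = D^n` only inside `H`
  set D' := cj n⁻¹ D with hD'def
  set f := n⁻¹ * g with hfdef
  have hfD' : ∀ a ∈ D', a⁻¹ * (f⁻¹ * a * f) ∈ H := fun a ha => by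
    have h := hdiff _ (mem_cj_inv.mp ha)
    rw [show n⁻¹ * (n * a * n⁻¹) * n = a by group] at h
    simpa [hfdef, mul_assoc] using h
  set E := D' ⊔ H with hE
  have hEP : E ≤ (P : Subgroup G) := sup_le hnD hO.le
  have hfEH : ∀ e ∈ E, e⁻¹ * (f⁻¹ * e * f) ∈ H := fun e he => by
    let S : Subgroup G :=
      { carrier := {e | e⁻¹ * (f⁻¹ * e * f) ∈ H}
        one_mem' := by simp
        mul_mem' := fun {a b} ha hb => by
          have e1 : (a * b)⁻¹ * (f⁻¹ * (a * b) * f) =
              b⁻¹ * (a⁻¹ * (f⁻¹ * a * f)) * b * (b⁻¹ * (f⁻¹ * b * f)) := by group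
          show (a * b)⁻¹ * (f⁻¹ * (a * b) * f) ∈ H
          rw [e1]
          exact H.mul_mem (by simpa using hHn.conj_mem _ ha b⁻¹) hb
        inv_mem' := fun {a} ha => by
          have e1 : a⁻¹⁻¹ * (f⁻¹ * a⁻¹ * f) = a * (a⁻¹ * (f⁻¹ * a * f))⁻¹ * a⁻¹ := by group
          show a⁻¹⁻¹ * (f⁻¹ * a⁻¹ * f) ∈ H
          rw [e1]
          exact hHn.conj_mem _ (H.inv_mem ha) a }
    have hle : E ≤ S := sup_le hfD' fun h hh => H.mul_mem (H.inv_mem hh) (by
      simpa using hHn.conj_mem h hh f⁻¹)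
    exact hle he
  have hfN : f ∈ Subgroup.normalizer (E : Set G) := by
    rw [← Subgroup.inv_mem_iff, ← cj_eq_iff_mem_normalizer]
    refine Subgroup.eq_of_le_of_card_ge (fun z hz => ?_) (card_cj f⁻¹ E).ge
    have hz' := mem_cj_inv.mp hz
    have h1 := hfEH _ hz'
    rw [show f⁻¹ * (f * z * f⁻¹) * f = z by group] at h1
    have := E.mul_mem hz' (Subgroup.mem_sup_right h1 : _ ∈ E)
    simpa [mul_assoc] using this
  rcases eq_or_lt_of_le hEP with hEP' | hlt
  · exact (ZJControls.of_mem (Modules.normalizer_le_normalizer_centerThompsonOf p _ (hEP' ▸ hfN)))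
  -- move a Sylow subgroup of `N(E)` into `P`
  have hQlt : E < (P : Subgroup G) ⊓ Subgroup.normalizer (E : Set G) := lt_normalizer_inf P.2 hlt
  set Q := (P : Subgroup G) ⊓ Subgroup.normalizer (E : Set G) with hQdef
  obtain ⟨R, hQR, hRidx⟩ := exists_sylow_inf_relIndex (p := p) (N := Subgroup.normalizer (E : Set G))
    (P.2.to_le inf_le_left : IsPGroup p Q) inf_le_right
  obtain ⟨y, hy⟩ := exists_cj_sylow P R
  have hyP : cj y⁻¹ (R : Subgroup G) = (P : Subgroup G) := by rw [← hy, cj_inv_cj]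
  have hcard : Nat.card D < Nat.card Q :=
    calc Nat.card D = Nat.card D' := (card_cj n⁻¹ D).symm
      _ ≤ Nat.card E := Subgroup.card_le_of_le le_sup_left
      _ < Nat.card Q := card_lt_card hQlt
  have hctrl : ZJControls p (P : Subgroup G) Q y :=
    hbig Q y hcard inf_le_left (hyP ▸ cj_mono _ hQR)
  have hfD'' : cj f⁻¹ D' ≤ Q :=
    ((cj_mono _ le_sup_left).trans_eq (cj_eq_of_mem (inv_mem hfN))).trans hQlt.le
  refine (hctrl.mono (le_sup_left.trans hQlt.le)).of_conj (hctrl.mono hfD'') ?_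
  refine ZJControls.mono ?_ (cj_mono y⁻¹ (le_sup_left : D' ≤ E))
  set E' := cj y⁻¹ E with hE'
  set k := y⁻¹ * f * y with hk
  have hN' : Subgroup.normalizer (E' : Set G) = cj y⁻¹ (Subgroup.normalizer (E : Set G)) :=
    (cj_normalizer _ _).symm
  let U : Subgroup G :=
    Subgroup.normalizer (E' : Set G) ⊓
      (Subgroup.centralizer ((E'.map π : Subgroup (G ⧸ H)) : Set (G ⧸ H))).comap π
  have hkU : k ∈ U := by
    refine Subgroup.mem_inf.mpr ⟨?_, Subgroup.mem_comap.mpr (Subgroup.mem_centralizer_iff.mpr ?_)⟩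
    · rw [hN', mem_cj_inv]
      simpa [hk, mul_assoc] using hfN
    · rintro _ ⟨e, he, rfl⟩
      have he' := mem_cj_inv.mp he
      have h1 := hHn.conj_mem _ (hfEH _ he') y⁻¹
      have h2 : π (e⁻¹ * (k⁻¹ * e * k)) = 1 := (QuotientGroup.eq_one_iff _).mpr
        (by simpa [hk, mul_assoc] using h1)
      rw [map_mul, map_mul, map_mul, map_inv, map_inv, inv_mul_eq_one, mul_assoc,
        eq_inv_mul_iff_mul_eq] at h2
      exact h2.symm
  -- `U ≤ C(E') P`
  set Q' := (P : Subgroup G) ⊓ Subgroup.normalizer (E' : Set G) with hQ'def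
  have hQ'idx : ¬ p ∣ Q'.relIndex (Subgroup.normalizer (E' : Set G)) := by
    have hQ' : Q' = cj y⁻¹ ((R : Subgroup G) ⊓ Subgroup.normalizer (E : Set G)) := by
      rw [cj_inf, hyP, ← hN']
    rw [hQ', hN']
    exact fun h => hRidx ((Subgroup.relIndex_map_map_of_injective (f := (MulAut.conj y⁻¹).toMonoidHom) _ _
      (MulAut.conj y⁻¹).injective) ▸ h)
  haveI hUn : (U.subgroupOf (Subgroup.normalizer (E' : Set G))).Normal := by
    refine ⟨fun u hu z => Subgroup.mem_subgroupOf.mpr (Subgroup.mem_inf.mpr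
      ⟨(z * u * z⁻¹ : Subgroup.normalizer (E' : Set G)).2, ?_⟩)⟩
    refine Subgroup.mem_comap.mpr ?_
    simp only [Subgroup.coe_mul, Subgroup.coe_inv, map_mul, map_inv]
    exact (Subgroup.mem_normalizer_iff.mp (LocalEven.le_normalizer_centralizer
      (Subgroup.le_normalizer_map π ⟨z, z.2, rfl⟩)) _).mp (Subgroup.mem_subgroupOf.mp hu).2
  have hpow : ∀ u ∈ U, ∃ i : ℕ, u ^ p ^ i ∈ Subgroup.centralizer (E' : Set G) := by
    intro u hu
    haveI hCn : C.Normal := Subgroup.normal_centralizer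
    obtain ⟨c, hc, s, hs, rfl⟩ := Subgroup.mem_sup_of_normal_left.mp
      (hK.symm ▸ Subgroup.mem_top u : u ∈ C ⊔ (P : Subgroup G))
    obtain ⟨i, hi⟩ := P.2 ⟨s, hs⟩
    have hsi : s ^ p ^ i = 1 := congrArg Subtype.val hi
    have hh : (c * s) ^ p ^ i ∈ C := by
      rw [← QuotientGroup.eq_one_iff, QuotientGroup.mk_pow, QuotientGroup.mk_mul,
        (QuotientGroup.eq_one_iff c).mpr hc, one_mul, ← QuotientGroup.mk_pow, hsi]
      rfl
    obtain ⟨j, hj⟩ := IsPGroup.iff_card.mp (Cores.pCore_isPGroup (p := p) (G := G))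
    refine ⟨i + j, Subgroup.mem_centralizer_iff.mpr fun e he => ?_⟩
    set h := (c * s) ^ p ^ i with hhdef
    have hcomm : Commute (π h) (π e) := by
      have h0 : Commute (π (c * s)) (π e) :=
        (Subgroup.mem_centralizer_iff.mp hu.2 _ ⟨e, he, rfl⟩).symm
      rw [hhdef, map_pow]
      exact h0.pow_left _
    have hv : ⁅h, e⁆ ∈ H := by
      refine (QuotientGroup.eq_one_iff _).mp ?_
      show π ⁅h, e⁆ = 1
      rw [map_commutatorElement, commutatorElement_eq_one_iff_mul_comm]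
      exact hcomm.eq
    set v := ⁅h, e⁆
    have hhv : Commute h v := (Subgroup.mem_centralizer_iff.mp hh v hv).symm
    have hiter : ∀ m : ℕ, h ^ m * e * (h ^ m)⁻¹ = v ^ m * e := by
      intro m
      induction m with
      | zero => simp
      | succ m ihm =>
        calc h ^ (m + 1) * e * (h ^ (m + 1))⁻¹ = h * (h ^ m * e * (h ^ m)⁻¹) * h⁻¹ := by
              rw [pow_succ', mul_inv_rev]; simp only [mul_assoc]
          _ = h * (v ^ m * e) * h⁻¹ := by rw [ihm]
          _ = v ^ m * (h * e * h⁻¹) := by rw [← mul_assoc, (hhv.pow_right m).eq]; group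
          _ = v ^ m * (v * e) := by simp [v, commutatorElement_def, mul_assoc]
          _ = _ := by rw [← mul_assoc, ← pow_succ]
    have hvj : v ^ p ^ j = 1 := by
      rw [← hj]
      exact congrArg Subtype.val (pow_card_eq_one' (x := (⟨v, hv⟩ : H)))
    have h3 := hiter (p ^ j)
    rw [hvj, one_mul] at h3
    rw [pow_add, pow_mul]
    exact (mul_inv_eq_iff_eq_mul.mp h3).symm
  have hUle : U ≤ Subgroup.centralizer (E' : Set G) ⊔ (Q' ⊓ U) := by
    let N' := Subgroup.normalizer (E' : Set G)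
    let U' := U.subgroupOf N'
    let QN : Sylow p N' := ((P.2.to_le inf_le_left : IsPGroup p Q').comap_subtype (K := N')).toSylow
      hQ'idx
    let QU : Sylow p U' := (QN.2.comap_subtype (K := U')).toSylow
      (show ¬ p ∣ ((QN : Subgroup N').subgroupOf U').index from fun hd =>
        Sylow.not_dvd_index' (P := QN) (by
          rw [← Nat.pos_iff_ne_zero]
          exact Nat.pos_of_ne_zero Subgroup.index_ne_zero_of_finite)
          (hd.trans (PSolv.relIndex_dvd_index_of_normal_right (QN : Subgroup N') U')))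
    have hle : ((Subgroup.centralizer (E' : Set G) ⊔ (Q' ⊓ U)).subgroupOf N').subgroupOf U' = ⊤ := by
      refine Transfer.eq_top_of_sylow_le QU (fun w hw => ?_) fun w hw => ?_
      · exact Subgroup.mem_sup_right (show ((w : N') : G) ∈ Q' ⊓ U from ⟨hw, w.2⟩)
      · refine Subgroup.mem_sup_left ?_
        obtain ⟨i, hi⟩ := hpow _ (w.2 : ((w : N') : G) ∈ U)
        have hcop : Nat.Coprime (p ^ i) (orderOf ((w : N') : G)) := by
          rw [Subgroup.orderOf_coe, Subgroup.orderOf_coe]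
          exact (Nat.Coprime.pow_right i hw).symm
        obtain ⟨m, hm⟩ := exists_pow_eq_self_of_coprime hcop
        show ((w : N') : G) ∈ Subgroup.centralizer (E' : Set G)
        rw [← hm]
        exact pow_mem hi m
    exact fun w hw => Subgroup.subgroupOf_eq_top.mp hle
      (show (⟨w, hw.1⟩ : N') ∈ U' from hw)
  have hQn : Q' ⊓ U ≤ Subgroup.normalizer ((Subgroup.centralizer (E' : Set G) : Subgroup G) : Set G) :=
    fun w hw => LocalEven.le_normalizer_centralizer hw.1.2
  obtain ⟨c, hc, t, ht, hct⟩ : k ∈ ((Subgroup.centralizer (E' : Set G) : Subgroup G) : Set G) *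
      ((Q' ⊓ U : Subgroup G) : Set G) := by
    rw [← Subgroup.coe_mul_of_right_le_normalizer_left _ _ hQn]
    exact hUle hkU
  rw [← show c * t = k from hct]
  refine (ZJControls.of_centralizer hc).comp (ZJControls.of_mem ?_)
  exact Modules.normalizer_le_normalizer_centerThompsonOf p _ (Subgroup.le_normalizer ht.1.1)

/-- The case `O_p(G) ≠ 1`. -/
theorem controls_of_pCore_ne_bot (hp2 : p ≠ 2) (P : Sylow p G) (hfree : SL2Free p G)
    (hrec : ∀ L : Subgroup G, L ≠ ⊤ → FusionControlled p L)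
    (hrecQ : FusionControlled p (G ⧸ Cfsg.pCore p G)) {D : Subgroup G} {g : G}
    (hbig : ∀ (D' : Subgroup G) (g' : G), Nat.card D < Nat.card D' → D' ≤ (P : Subgroup G) →
      cj g'⁻¹ D' ≤ (P : Subgroup G) → ZJControls p (P : Subgroup G) D' g')
    (hD : D ≤ (P : Subgroup G)) (hg : cj g⁻¹ D ≤ (P : Subgroup G)) :
    ZJControls p (P : Subgroup G) D g := by
  set H := Cfsg.pCore p G with hHdef
  haveI hHn : H.Normal := inferInstance
  set C := Subgroup.centralizer (H : Set G) with hC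
  haveI hCn : C.Normal := Subgroup.normal_centralizer
  have hHP : H ≤ (P : Subgroup G) := PSolv.pCore_le_sylow P
  have hst := hfree.zjStable hp2 (P : Subgroup G)
  set S := (P : Subgroup G) ⊓ stabCore p H with hS
  have hHS : H ≤ S := le_inf hHP (le_stabCore hHn fun h hh => by
    obtain ⟨j, hj⟩ := Cores.pCore_isPGroup (p := p) (G := G) ⟨h, hh⟩
    refine ⟨j, ?_⟩
    rw [show h ^ p ^ j = 1 from congrArg Subtype.val hj]
    exact one_mem _)
  by_cases hSH : S = H
  · -- `Z(J(P))` is normal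
    set Z := Cfsg.centerThompsonOf p (P : Subgroup G)
    have hZH : Z ≤ H := by
      intro z hz
      rw [← hSH]
      refine ⟨Modules.centerThompsonOf_le p _ hz,
        hst H Cores.pCore_isPGroup z (Modules.centerThompsonOf_le p _ hz) fun β hβ => ?_⟩
      have h1 : ⁅β, z⁆ ∈ Z := by
        have h2 : β * z * β⁻¹ ∈ Z := (Subgroup.mem_normalizer_iff.mp
          (Modules.normalizer_le_normalizer_centerThompsonOf p _
            (Subgroup.le_normalizer (hHP hβ))) z).mp hz
        exact Z.mul_mem h2 (Z.inv_mem hz)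
      exact commutatorElement_eq_one_iff_mul_comm.mpr
        (Modules.comm_iff.mp (Modules.centerThompsonOf_comm p _) _ h1 z hz)
    have hn := centerThompson_inf_normal hp2 P hst H hHn Cores.pCore_isPGroup
    rw [inf_eq_left.mpr hZH] at hn
    exact ZJControls.of_mem (by rw [Subgroup.normalizer_eq_top (h := hn)]; exact Subgroup.mem_top g)
  by_cases hK : C ⊔ (P : Subgroup G) = ⊤
  · refine controls_of_centralizer_sup hp2 P hfree (lt_of_le_of_ne hHP fun h => hSH ?_) hK hrec
      hrecQ hbig hD hg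
    exact le_antisymm (inf_le_left.trans h.ge) hHS
  -- `G = C(H) N(S)`
  set N := Subgroup.normalizer (S : Set G)
  haveI hMn : (stabCore p H).Normal := stabCore_normal H
  have hPN : (P : Subgroup G) ≤ N := fun x hx => Subgroup.mem_normalizer_iff.mpr fun z => by
    have hP' := Subgroup.mem_normalizer_iff.mp (Subgroup.le_normalizer hx) z
    have hM' := Subgroup.mem_normalizer_iff.mp
      (Subgroup.le_normalizer_of_normal (H := stabCore p H) (Subgroup.mem_top x)) z
    exact and_congr hP' hM'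
  have hNne : N ≠ ⊤ := fun h => by
    haveI : S.Normal := Subgroup.normalizer_eq_top_iff.mp h
    exact hSH (le_antisymm (Cores.le_pCore inferInstance (P.2.to_le inf_le_left)) hHS)
  obtain ⟨c, hc, n, hn, rfl⟩ := Subgroup.mem_sup_of_normal_left.mp
    ((centralizer_sup_normalizer_stabCore P H).symm ▸ Subgroup.mem_top g : g ∈ C ⊔ N)
  set K := C ⊔ (P : Subgroup G) with hKdef
  have hPJ : (P : Subgroup G) ≤ K ⊓ N := le_inf le_sup_right hPN
  have hI : cj c⁻¹ D ≤ K ⊓ N := by
    refine le_inf (fun z hz => ?_) ?_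
    · have h1 : c * z * c⁻¹ ∈ K := le_sup_right (a := C) (hD (mem_cj_inv.mp hz))
      have hcK : c ∈ K := le_sup_left (b := (P : Subgroup G)) hc
      simpa [mul_assoc] using K.mul_mem (K.mul_mem (K.inv_mem hcK) h1) hcK
    · have e : cj c⁻¹ D = cj n (cj (c * n)⁻¹ D) := by
        rw [cj_cj]
        congr 1
        group
      rw [e]
      calc cj n (cj (c * n)⁻¹ D) ≤ cj n N := cj_mono _ (hg.trans hPN)
        _ = N := cj_eq_of_mem (Subgroup.le_normalizer hn)
  obtain ⟨T, hTle, hTidx⟩ := exists_sylow_inf_relIndex (p := p) (N := K ⊓ N)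
    (isPGroup_cj (P.2.to_le hD) c⁻¹) hI
  obtain ⟨j, hj, hjT⟩ := exists_conj_of_relIndex (S := (P : Subgroup G))
    (T := (T : Subgroup G) ⊓ (K ⊓ N)) P.2 (T.2.to_le inf_le_left) hPJ inf_le_right
    (fun h => Sylow.not_dvd_index P (h.trans (Subgroup.relIndex_dvd_index_of_le hPJ))) hTidx
  have hcjD : cj (c * j)⁻¹ D ≤ (P : Subgroup G) := by
    rw [mul_inv_rev, ← cj_cj, cj_le_iff, inv_inv, hjT]
    exact le_inf hTle hI
  have hPK : ¬ p ∣ (P : Subgroup G).relIndex K := fun h =>
    Sylow.not_dvd_index P (h.trans (Subgroup.relIndex_dvd_index_of_le le_sup_right))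
  have hPN' : ¬ p ∣ (P : Subgroup G).relIndex N := fun h =>
    Sylow.not_dvd_index P (h.trans (Subgroup.relIndex_dvd_index_of_le hPN))
  obtain ⟨m1, -, hm1, hm1a⟩ := exists_of_subgroup (hrec K hK) P.2 le_sup_right hPK hD
    (K.mul_mem (le_sup_left (b := (P : Subgroup G)) hc) hj.1) hcjD
  have hsnd : cj (j⁻¹ * n)⁻¹ (cj (c * j)⁻¹ D) = cj (c * n)⁻¹ D := by
    rw [cj_cj]
    congr 1
    group
  obtain ⟨m2, -, hm2, hm2a⟩ := exists_of_subgroup (hrec N hNne) P.2 hPN hPN' hcjD
    (N.mul_mem (N.inv_mem hj.2) hn) (by rw [hsnd]; exact hg)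
  have e : c * n = (c * j) * (j⁻¹ * n) := by group
  rw [e]
  exact ZJControls.comp ⟨m1, hm1, hm1a⟩ ⟨m2, hm2, hm2a⟩

end Steps

/-- **Glauberman's ZJ theorem, fusion form.** -/
theorem zj_controls_fusion (hp2 : p ≠ 2) : ∀ (n : ℕ) (G : Type u) [Group G] [Finite G],
    Nat.card G ≤ n → SL2Free p G → FusionControlled p G := by
  intro n
  induction n with
  | zero =>
    intro G _ _ hcard
    exact absurd hcard (not_le.mpr Nat.card_pos)
  | succ n ih =>
    intro G _ _ hcard hfree P
    have hrec : ∀ L : Subgroup G, L ≠ ⊤ → FusionControlled p L := fun L hL =>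
      ih L (by
        have h1 : Nat.card L < Nat.card G := lt_of_le_of_ne L.card_le_card_group
          fun h => hL (Subgroup.eq_top_of_card_eq L h)
        omega) (hfree.subgroup L)
    have main : ∀ (m : ℕ) (D : Subgroup G) (g : G), Nat.card (P : Subgroup G) - Nat.card D ≤ m →
        D ≤ (P : Subgroup G) → cj g⁻¹ D ≤ (P : Subgroup G) →
        ZJControls p (P : Subgroup G) D g := by
      intro m
      induction m using Nat.strong_induction_on with
      | _ m ihm =>
      intro D g hm hD hg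
      have hbig : ∀ (D' : Subgroup G) (g' : G), Nat.card D < Nat.card D' →
          D' ≤ (P : Subgroup G) → cj g'⁻¹ D' ≤ (P : Subgroup G) →
          ZJControls p (P : Subgroup G) D' g' := fun D' g' hlt hD' hg' =>
        ihm (Nat.card (P : Subgroup G) - Nat.card D')
          (by have := Subgroup.card_le_of_le hD'; omega) D' g' le_rfl hD' hg'
      by_cases hO : Cfsg.pCore p G = ⊥
      · exact controls_of_pCore_eq_bot P hO hrec hbig hD hg
      · refine controls_of_pCore_ne_bot hp2 P hfree hrec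
          (ih (G ⧸ Cfsg.pCore p G) ?_ (hfree.quotient _)) hbig hD hg
        have h1 := (Cfsg.pCore p G).card_mul_index
        rw [Subgroup.index_eq_card] at h1
        have h2 : 2 ≤ Nat.card (Cfsg.pCore p G) := (Cfsg.pCore p G).one_lt_card_iff_ne_bot.mpr hO
        have h3 : 2 * Nat.card (G ⧸ Cfsg.pCore p G) ≤ n + 1 :=
          (Nat.mul_le_mul_right _ h2).trans (h1.le.trans hcard)
        have h4 : 0 < Nat.card (G ⧸ Cfsg.pCore p G) := Nat.card_pos
        omega
    intro D g hD hg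
    exact main _ D g le_rfl hD hg

end Cfsg.Agent.H4
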